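import Mathlib
import Cfsg.Agent.Lib.Helper68.ReeCube.Defs

set_option autoImplicit false

namespace Cfsg.Agent.Lib.Helper27.ReeCube

open Cfsg.Agent.Lib.Helper68.ReeCube

universe u v

/-- the trace identity forced by a fixed point of `X ↦ e • G X (G⁻¹)^(3)` -/
theorem fix_trace {F : Type u} [Field F] [CharP F 3] (G G' X : Matrix (Fin 2) (Fin 2) F)
    (hdet : G.det = 1) (hGG' : G * G' = 1) (hG'G : G' * G = 1) (e : F) (he : e * e = 1)
    (hX : X ≠ 0) (hfix : e • (G * X * cubeM F G') = X) :
    G.trace = e * G.trace ^ 3 := by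
  have hH : cubeM F G' * cubeM F G = 1 := by rw [← map_mul, hG'G, map_one]
  have h1 : G * X = e • (X * cubeM F G) := by
    have h : e • (e • (G * X * cubeM F G') * cubeM F G) = e • (X * cubeM F G) :=
      congrArg (fun Y => e • (Y * cubeM F G)) hfix
    rw [← h, Matrix.smul_mul, smul_smul, he, one_smul, Matrix.mul_assoc, hH, Matrix.mul_one]
  have h2 : G' * X = e • (X * cubeM F G') := by
    have h : G' * e • (G * X * cubeM F G') = G' * X := congrArg (fun Y => G' * Y) hfix
    rw [← h, Matrix.mul_smul, ← Matrix.mul_assoc, ← Matrix.mul_assoc, hG'G, Matrix.one_mul]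
  have h3 : G + G' = G.trace • (1 : Matrix (Fin 2) (Fin 2) F) := by
    have h := Cfsg.Agent.Lib.Helper41.cayley2_det_one hdet
    have h' : G * G * G' = (G.trace • G - 1) * G' := congrArg (fun Y => Y * G') h
    rw [Matrix.mul_assoc, hGG', Matrix.mul_one, Matrix.sub_mul, Matrix.smul_mul, hGG',
      Matrix.one_mul] at h'
    exact eq_sub_iff_add_eq.mp h'
  have h4 : cubeM F G + cubeM F G' = (G.trace ^ 3) • (1 : Matrix (Fin 2) (Fin 2) F) := by
    rw [← map_add, h3]
    ext i j
    simp only [cubeM, RingHom.mapMatrix_apply, Matrix.map_apply, Matrix.smul_apply,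
      Matrix.one_apply, frobenius_def, smul_eq_mul]
    split_ifs
    · simp
    · simp
  have h5 : G.trace • X = (e * G.trace ^ 3) • X := by
    calc G.trace • X = (G + G') * X := by rw [h3, Matrix.smul_mul, Matrix.one_mul]
      _ = G * X + G' * X := Matrix.add_mul _ _ _
      _ = e • (X * cubeM F G) + e • (X * cubeM F G') := by rw [h1, h2]
      _ = e • (X * (cubeM F G + cubeM F G')) := by rw [Matrix.mul_add, smul_add]
      _ = (e * G.trace ^ 3) • X := by rw [h4, Matrix.mul_smul, Matrix.mul_one, smul_smul]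
  have h6 : (G.trace - e * G.trace ^ 3) • X = 0 := by
    rw [sub_smul, h5, sub_self]
  rcases smul_eq_zero.mp h6 with h | h
  · exact sub_eq_zero.mp h
  · exact absurd h hX

/-- trace zero gives square `-1` -/
theorem sq_of_trace_zero {F : Type u} [Field F] (g : Matrix.SpecialLinearGroup (Fin 2) F)
    (h0 : g.1.trace = 0) :
    (QuotientGroup.mk g : Matrix.ProjectiveSpecialLinearGroup (Fin 2) F) ^ 2 = 1 := by
  rw [Cfsg.Agent.Lib.Helper41.psl2_pow_eq_one_iff]
  right
  rw [pow_two, Matrix.SpecialLinearGroup.coe_mul,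
    Cfsg.Agent.Lib.Helper41.cayley2_det_one g.2, h0, zero_smul, zero_sub]

/-- trace `±1` gives cube `∓1` -/
theorem cube_of_trace_sq_one {F : Type u} [Field F] (g : Matrix.SpecialLinearGroup (Fin 2) F)
    (h1 : g.1.trace ^ 2 = 1) :
    (QuotientGroup.mk g : Matrix.ProjectiveSpecialLinearGroup (Fin 2) F) ^ 3 = 1 := by
  rw [Cfsg.Agent.Lib.Helper41.psl2_pow_eq_one_iff]
  have hc := Cfsg.Agent.Lib.Helper41.cayley2_det_one g.2
  have h3 : (g ^ 3).1 = (-g.1.trace) • (1 : Matrix (Fin 2) (Fin 2) F) := by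
    have e1 : (g ^ 3).1 = g.1 * g.1 * g.1 := by
      rw [pow_succ, pow_two, Matrix.SpecialLinearGroup.coe_mul,
        Matrix.SpecialLinearGroup.coe_mul]
    rw [e1, hc, Matrix.sub_mul, Matrix.smul_mul, hc, Matrix.one_mul, smul_sub, smul_smul,
      ← pow_two, h1, one_smul, neg_smul]
    abel
  have h1' : (g.1.trace - 1) * (g.1.trace + 1) = 0 := by linear_combination h1
  rcases mul_eq_zero.mp h1' with h | h
  · right
    rw [h3, sub_eq_zero.mp h, neg_smul, one_smul]
  · left
    rw [h3, eq_neg_of_add_eq_zero_left h, neg_neg, one_smul]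

/-- **[FIX]** -/
theorem pkgFix : Cfsg.Agent.Lib.Helper68.ReeCube.PkgFix.{u, v} := by
  intro F _ _ ι hsq γ n hn hfix
  obtain ⟨a, ε⟩ := γ
  obtain ⟨g, rfl⟩ := QuotientGroup.mk_surjective a
  rw [rho_mk] at hfix
  have hn' : ∃ i, Multiplicative.toAdd n i ≠ 0 := by
    by_contra hcon
    push Not at hcon
    apply hn
    apply Multiplicative.toAdd.injective
    funext i
    exact hcon i
  obtain ⟨i, hi⟩ := hn'
  have hfi := congrFun (congrArg Multiplicative.toAdd hfix) i
  simp only [toAdd_ofAdd] at hfi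
  have hGG' : g.1 * (g⁻¹).1 = 1 := by
    rw [← Matrix.SpecialLinearGroup.coe_mul, mul_inv_cancel, Matrix.SpecialLinearGroup.coe_one]
  have hG'G : (g⁻¹).1 * g.1 = 1 := by
    rw [← Matrix.SpecialLinearGroup.coe_mul, inv_mul_cancel, Matrix.SpecialLinearGroup.coe_one]
  have hε2 : ε ^ 2 = 1 := Int.units_sq ε
  rcases Int.units_eq_one_or ε with hε | hε
  · subst hε
    have hfi' : (1 : F) • (g.1 * Multiplicative.toAdd n i * cubeM F (g⁻¹).1)
        = Multiplicative.toAdd n i := by
      rw [one_smul]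
      simpa using hfi
    have ht := fix_trace g.1 (g⁻¹).1 (Multiplicative.toAdd n i) g.2 hGG' hG'G 1 (one_mul 1)
      hi hfi'
    have ht' : g.1.trace * (g.1.trace ^ 2 - 1) = 0 := by linear_combination -ht
    rcases mul_eq_zero.mp ht' with h | h
    · left
      rw [Prod.pow_mk, sq_of_trace_zero g h, hε2]
      rfl
    · right
      rw [Prod.pow_mk, cube_of_trace_sq_one g (sub_eq_zero.mp h), one_pow]
      rfl
  · subst hε
    have hfi' : (-1 : F) • (g.1 * Multiplicative.toAdd n i * cubeM F (g⁻¹).1)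
        = Multiplicative.toAdd n i := by
      rw [neg_smul, one_smul]
      simpa [Matrix.mul_neg, Matrix.neg_mul] using hfi
    have ht := fix_trace g.1 (g⁻¹).1 (Multiplicative.toAdd n i) g.2 hGG' hG'G (-1)
      (by ring) hi hfi'
    have ht' : g.1.trace * (g.1.trace ^ 2 + 1) = 0 := by linear_combination ht
    rcases mul_eq_zero.mp ht' with h | h
    · left
      rw [Prod.pow_mk, sq_of_trace_zero g h, hε2]
      rfl
    · exfalso
      apply hsq
      exact ⟨g.1.trace, by linear_combination -h⟩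

end Cfsg.Agent.Lib.Helper27.ReeCube
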