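import Mathlib
import Cfsg.Agent.Lib.Helper68.ReeCube.Defs

set_option autoImplicit false

namespace Cfsg.Agent.Lib.Helper27.ReeCube

universe u v

theorem orderOf_triple {A B C : Type*} [Monoid A] [Monoid B] [Monoid C] (x : A) (y : B) (z : C) :
    orderOf (x, y, z) = Nat.lcm (orderOf x) (Nat.lcm (orderOf y) (orderOf z)) := by
  rw [Prod.orderOf, Prod.orderOf]

/-- **[LCM]** -/
theorem pkgLcm : Cfsg.Agent.Lib.Helper68.ReeCube.PkgLcm.{u, v} := by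
  intro R L _ _ a b t1 t2 hR hL
  have hLR : ∀ d, (d ∣ 6 ∨ d ∣ 9 ∨ d ∣ a ∨ d ∣ b) → ∃ g : R, orderOf g = d := by
    intro d hd
    apply (hR d).mpr
    tauto
  apply Set.Subset.antisymm
  · rintro _ ⟨⟨r1, r2, l⟩, rfl⟩
    obtain ⟨r3, h3⟩ := hLR _ ((hL _).mp ⟨l, rfl⟩)
    refine ⟨(r1, r2, r3), ?_⟩
    rw [orderOf_triple, orderOf_triple, h3]
  · rintro _ ⟨⟨r1, r2, r3⟩, rfl⟩
    rw [orderOf_triple]
    have hA : ∀ x y z : R, (orderOf z ∣ 6 ∨ orderOf z ∣ 9 ∨ orderOf z ∣ a ∨ orderOf z ∣ b) →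
        ∃ w : R × R × L, orderOf w = Nat.lcm (orderOf x) (Nat.lcm (orderOf y) (orderOf z)) := by
      intro x y z hz
      obtain ⟨l, hl⟩ := (hL _).mpr hz
      exact ⟨(x, y, l), by rw [orderOf_triple, hl]⟩
    have hB : ∀ (t : ℕ), (∀ d, d ∣ t → ∃ g : R, orderOf g = d) → ∀ x y z : R,
        orderOf x ∣ t → orderOf y ∣ t →
        ∃ w : R × R × L, orderOf w = Nat.lcm (orderOf x) (Nat.lcm (orderOf y) (orderOf z)) := by
      intro t ht x y z hx hy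
      obtain ⟨r, hr⟩ := ht _ (Nat.lcm_dvd hx hy)
      refine ⟨(r, z, 1), ?_⟩
      rw [orderOf_triple, hr, orderOf_one, Nat.lcm_one_right, Nat.lcm_assoc]
    have ht1 : ∀ d, d ∣ t1 → ∃ g : R, orderOf g = d := fun d hd => (hR d).mpr (by tauto)
    have ht2 : ∀ d, d ∣ t2 → ∃ g : R, orderOf g = d := fun d hd => (hR d).mpr (by tauto)
    have c1 : (orderOf r1 ∣ 6 ∨ orderOf r1 ∣ 9 ∨ orderOf r1 ∣ a ∨ orderOf r1 ∣ b) ∨
        orderOf r1 ∣ t1 ∨ orderOf r1 ∣ t2 := by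
      have := (hR _).mp ⟨r1, rfl⟩
      tauto
    have c2 : (orderOf r2 ∣ 6 ∨ orderOf r2 ∣ 9 ∨ orderOf r2 ∣ a ∨ orderOf r2 ∣ b) ∨
        orderOf r2 ∣ t1 ∨ orderOf r2 ∣ t2 := by
      have := (hR _).mp ⟨r2, rfl⟩
      tauto
    have c3 : (orderOf r3 ∣ 6 ∨ orderOf r3 ∣ 9 ∨ orderOf r3 ∣ a ∨ orderOf r3 ∣ b) ∨
        orderOf r3 ∣ t1 ∨ orderOf r3 ∣ t2 := by
      have := (hR _).mp ⟨r3, rfl⟩
      tauto
    show ∃ w : R × R × L, orderOf w = Nat.lcm (orderOf r1) (Nat.lcm (orderOf r2) (orderOf r3))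
    rcases c3 with h3 | h3
    · exact hA r1 r2 r3 h3
    rcases c2 with h2 | h2
    · obtain ⟨w, hw⟩ := hA r1 r3 r2 h2
      exact ⟨w, by rw [hw]; ac_rfl⟩
    rcases c1 with h1 | h1
    · obtain ⟨w, hw⟩ := hA r2 r3 r1 h1
      exact ⟨w, by rw [hw]; ac_rfl⟩
    rcases h1 with h1 | h1 <;> rcases h2 with h2 | h2
    · exact hB t1 ht1 r1 r2 r3 h1 h2
    · rcases h3 with h3 | h3
      · obtain ⟨w, hw⟩ := hB t1 ht1 r1 r3 r2 h1 h3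
        exact ⟨w, by rw [hw]; ac_rfl⟩
      · obtain ⟨w, hw⟩ := hB t2 ht2 r2 r3 r1 h2 h3
        exact ⟨w, by rw [hw]; ac_rfl⟩
    · rcases h3 with h3 | h3
      · obtain ⟨w, hw⟩ := hB t1 ht1 r2 r3 r1 h2 h3
        exact ⟨w, by rw [hw]; ac_rfl⟩
      · obtain ⟨w, hw⟩ := hB t2 ht2 r1 r3 r2 h1 h3
        exact ⟨w, by rw [hw]; ac_rfl⟩
    · exact hB t2 ht2 r1 r2 r3 h1 h2

end Cfsg.Agent.Lib.Helper27.ReeCube
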